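import Mathlib
import Cfsg.Agent.Lib.Perm.ZassBasic
import Cfsg.Agent.Lib.PSL2Rec.Fix2
import Cfsg.Agent.Lib.SmallSimple.NC

/-!
A 2-group acting on a set such that every involution fixes three points.
-/

set_option autoImplicit false

namespace CfsgLib.E2

open Subgroup MulAction CfsgLib.Perm

theorem three_fix {S Ω : Type*} [Group S] [Finite S] [Finite Ω] [MulAction S Ω]
    (hS : IsPGroup 2 S) (h3 : ∀ t : S, orderOf t = 2 → Nat.card (fixedBy Ω t) = 3) {z : S}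
    (hz : orderOf z = 2) (hc : z ∈ center S) :
    Nat.card S ∣ 2 * (Nat.card Ω - 3) ∧ (Nat.card S ∣ Nat.card Ω - 3 ∨
      ((∃ t : S, orderOf t = 2 ∧ Nat.card (centralizer ({t} : Set S)) = 4) ∧
        ∃ T : Subgroup S, T.index = 2 ∧ ∀ g, g ∈ T ↔ fixedBy Ω z ⊆ fixedBy Ω g)) := by
  have hodd := PSL2Rec.card_fixedBy_modEq (X := Ω) (p := 2) (k := 1) (x := z)
    (by rw [pow_one, ← hz, pow_orderOf_eq_one])
  rw [h3 z hz, Nat.ModEq] at hodd
  obtain ⟨α, hα⟩ := hS.nonempty_fixed_point_of_prime_not_dvd_card Ω (by omega)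
  have hΔ : (fixedBy Ω z).ncard = 3 := h3 z hz
  have hinv : ∀ {t g : S}, Commute g t → ∀ a, g • a ∈ fixedBy Ω t ↔ a ∈ fixedBy Ω t :=
    fun {t g} h a => by
      rw [mem_fixedBy, mem_fixedBy, ← mul_smul, ← h.eq, mul_smul, smul_left_cancel_iff]
  have hcz : ∀ g, Commute g z := fun g => mem_center_iff.1 hc g
  obtain ⟨β, γ, hβγ, e⟩ := Set.ncard_eq_two.1 (show (fixedBy Ω z \ {α}).ncard = 2 by
    rw [Set.ncard_sdiff_singleton_of_mem (s := fixedBy Ω z) (hα z), hΔ])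
  have hmem : ∀ a, a ∈ fixedBy Ω z ↔ a = α ∨ a = β ∨ a = γ := fun a => by
    have := Set.ext_iff.1 e a
    have h1 : α ∈ fixedBy Ω z := hα z
    rw [Set.mem_sdiff, Set.mem_singleton_iff, Set.mem_insert_iff, Set.mem_singleton_iff] at this
    by_cases h : a = α
    · simp only [h, h1, true_or]
    · tauto
  have hmv : ∀ (g : S) a, a = β ∨ a = γ → g • a = β ∨ g • a = γ := fun g a ha => by
    have h1 : a ∈ fixedBy Ω z \ {α} := e ▸ ha
    have h2 : g • a ∈ fixedBy Ω z \ {α} := ⟨(hinv (hcz g) a).2 h1.1, fun h =>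
      h1.2 (smul_left_cancel g (h.trans (hα g).symm))⟩
    rwa [e] at h2
  have hT : ∀ g, g ∈ stabilizer S β ↔ fixedBy Ω z ⊆ fixedBy Ω g := fun g =>
    ⟨fun h a ha => by
      rcases (hmem a).1 ha with rfl | rfl | rfl
      · exact hα g
      · exact h
      · exact (hmv g a (Or.inr rfl)).resolve_left fun h' =>
          hβγ (smul_left_cancel g (h.trans h'.symm)),
      fun h => h ((hmem β).2 (Or.inr (Or.inl rfl)))⟩
  have hi : (stabilizer S β).index ∣ 2 := by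
    rw [index_stabilizer]
    have h1 : (orbit S β).ncard ≤ 2 := by
      rw [← Set.ncard_pair hβγ]
      exact Set.ncard_le_ncard (by rintro _ ⟨g, rfl⟩; exact hmv g β (Or.inl rfl))
    have h2 : 0 < (orbit S β).ncard := (Set.ncard_pos).2 ⟨β, mem_orbit_self β⟩
    interval_cases (orbit S β).ncard <;> simp
  have hinvol : ∀ {g : S}, g ≠ 1 → ∃ t ∈ zpowers g, orderOf t = 2 := fun {g} h => by
    obtain ⟨k, hk⟩ := IsPGroup.iff_card.1 (hS.to_subgroup (zpowers g))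
    refine PSL2Rec.exists_mem_orderOf_eq_prime _ Nat.prime_two (hk ▸ dvd_pow_self 2 ?_)
    rintro rfl
    exact h (zpowers_eq_bot.1 (card_eq_one.1 hk))
  have hsub : ∀ {g t : S}, t ∈ zpowers g → fixedBy Ω g ⊆ fixedBy Ω t := by
    rintro g _ ⟨k, rfl⟩
    exact fixedBy_subset_fixedBy_zpow Ω g k
  have hfree : ∀ g ∈ stabilizer S β, ∀ b ∈ (fixedBy Ω z)ᶜ, g • b = b → g = 1 := fun g hg b hb h => by
    by_contra h1
    obtain ⟨t, ht, ht2⟩ := hinvol h1
    exact hb (Set.eq_of_subset_of_ncard_le (((hT g).1 hg).trans (hsub ht))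
      (hΔ.symm ▸ (h3 t ht2).le) ▸ hsub ht h)
  have hΓ : (fixedBy Ω z)ᶜ.ncard = Nat.card Ω - 3 := by rw [Set.ncard_compl, hΔ]
  have hiΓ : ∀ g : S, ∀ b ∈ (fixedBy Ω z)ᶜ, g • b ∈ (fixedBy Ω z)ᶜ := fun g b hb h =>
    hb ((hinv (hcz g) b).1 h)
  have h0 := card_dvd_of_free_on (stabilizer S β) _ (fun g _ => hiΓ g) hfree
  rw [hΓ] at h0
  refine ⟨(stabilizer S β).index_mul_card ▸ mul_dvd_mul hi h0, or_iff_not_imp_left.2 fun hn => ?_⟩
  have hi2 : (stabilizer S β).index = 2 := ((Nat.dvd_prime Nat.prime_two).1 hi).resolve_left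
    fun h => hn (by rwa [index_eq_one.1 h, card_top] at h0)
  refine ⟨?_, _, hi2, hT⟩
  obtain ⟨g, b, hb, hg, hg1⟩ : ∃ (g : S), ∃ b ∈ (fixedBy Ω z)ᶜ, g • b = b ∧ g ≠ 1 := by
    by_contra h
    push Not at h
    have := card_dvd_of_free_on (⊤ : Subgroup S) _ (fun g _ => hiΓ g) fun g _ => h g
    rw [hΓ, card_top] at this
    exact hn this
  obtain ⟨t, ht, ht2⟩ := hinvol hg1
  have htb : b ∈ fixedBy Ω t := hsub ht hg
  refine ⟨t, ht2, ?_⟩
  set C := centralizer ({t} : Set S)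
  have h1 := card_dvd_of_free_on (stabilizer S β ⊓ C) (fixedBy Ω t \ fixedBy Ω z)
    (fun g hg a ha => ⟨(hinv (mem_centralizer_singleton_iff.1 hg.2) a).2 ha.1, hiΓ g a ha.2⟩)
    fun g hg a ha => hfree g hg.1 a ha.2
  have h2 : (fixedBy Ω t \ fixedBy Ω z).ncard < 3 := by
    rw [← h3 t ht2]
    exact Set.ncard_lt_ncard ⟨Set.sdiff_subset, fun h => (h (hα t)).2 (hα z)⟩
  have h4 := Nat.le_of_dvd ((Set.ncard_pos).2 ⟨b, (Set.mem_sdiff b).2 ⟨htb, hb⟩⟩) h1
  have h5 : (stabilizer S β).relIndex C ≤ 2 := (relIndex_le_of_le_right le_top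
    (by rw [relIndex_top_right, hi2]; decide)).trans_eq ((relIndex_top_right _).trans hi2)
  have h6 := SmallSimple.card_mul_relIndex (inf_le_right : stabilizer S β ⊓ C ≤ C)
  rw [inf_relIndex_right] at h6
  have h7 : 3 ≤ Nat.card C := by
    have h8 : t ≠ 1 := fun h => by simp [h] at ht2
    have h9 : z ≠ 1 := fun h => by simp [h] at hz
    have h10 : t ≠ z := fun h => hb (h ▸ htb)
    rw [← Set.ncard_eq_three.2 ⟨1, t, z, h8.symm, h9.symm, h10, rfl⟩]
    refine Set.ncard_le_ncard (t := (C : Set S)) ?_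
    rintro _ (rfl | rfl | rfl)
    · exact one_mem _
    · exact mem_centralizer_singleton_iff.2 rfl
    · exact mem_centralizer_singleton_iff.2 (hcz t).symm
  obtain ⟨k, hk⟩ := IsPGroup.iff_card.1 (hS.to_subgroup C)
  have h8 : Nat.card C ≤ 4 := by nlinarith
  rw [hk] at h7 h8 ⊢
  rcases k with _ | _ | _ | k
  · omega
  · omega
  · rfl
  · have := Nat.one_le_two_pow (n := k)
    rw [pow_succ, pow_succ, pow_succ] at h8
    omega

end CfsgLib.E2
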